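import Mathlib
import Cfsg.Agent.H580.RankOne
import Cfsg.Agent.H580.Lie
import Cfsg.Agent.Mrg.Omega.ML.Ex.Typ.List
import Cfsg.Agent.Lib.Zsigmondy
import Cfsg.Agent.Lib.NilpotentCoprime
import Cfsg.Agent.GTwoOdd.CentPSU
import Cfsg.Agent.HKS.EndOrd
import Cfsg.Agent.S0283
import Cfsg.Prelude.Def_LieTypeChar
import Cfsg.Prelude.Def_Classification2

/-!
# `PSU₃(q)` has more than two classes of non-nilpotent maximal invariant subgroups

`false_psu_three`, for the classification of the groups whose non-nilpotent maximal invariant subgroups fall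
into at most two classes.
-/

set_option autoImplicit false
open scoped Pointwise

namespace Cfsg.Agent.H60.PsuThree

open Cfsg.Agent.FixBN

universe u v

theorem center_eq_bot {G : Type u} [Group G] [IsSimpleGroup G] (hna : ¬ Group.IsSolvable G) :
    Subgroup.center G = ⊥ := by
  rcases (inferInstance : (Subgroup.center G).Normal).eq_bot_or_eq_top with h1 | h1
  · exact h1
  · exfalso
    apply hna
    have : IsMulCommutative G := ⟨⟨fun a b => ((Subgroup.mem_center_iff.mp (h1 ▸ Subgroup.mem_top a)) b).symm⟩⟩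
    let _ : CommGroup G := { ‹Group G› with mul_comm := this.1.1 }
    infer_instance

/-- a nilpotent Borel subgroup of a simple group is its unipotent radical -/
theorem B_eq_of_nilp {G : Type u} [Group G] [Finite G] [IsSimpleGroup G] (hna : ¬ Group.IsSolvable G) {p : ℕ}
    [hp : Fact p.Prime] {P : Cfsg.BNPair G} {U : Subgroup G} (h : Split P p U) {s : G} (hs : s ∈ P.S)
    (hn : Group.IsNilpotent P.B) : P.B = U := by
  have hU : U ≠ ⊥ := by
    obtain ⟨V, hV⟩ := h.node s hs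
    obtain ⟨u, hu, huV⟩ := hV.ne
    rintro rfl
    rw [Subgroup.mem_bot.mp hu] at huV
    exact huV (one_mem V)
  obtain ⟨m, hm, hT⟩ := h.tor
  have hcomm : ∀ t ∈ P.B ⊓ P.N, ∀ u ∈ U, t * u = u * t := by
    intro t ht u hu
    obtain ⟨k, hk⟩ := h.isP ⟨u, hu⟩
    have hk' : u ^ p ^ k = 1 := by simpa using congrArg Subtype.val hk
    have h1 : (⟨t, ht.1⟩ : P.B) ^ m = 1 := Subtype.ext (hT t ht.1 ht.2)
    have h2 : (⟨u, h.le hu⟩ : P.B) ^ p ^ k = 1 := Subtype.ext hk'
    have h3 := Cfsg.Agent.Lib.NilpotentCoprime.commute_of_pow_eq_one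
      (Nat.Coprime.pow_right k ((Nat.Prime.coprime_iff_not_dvd hp.1).2 hm).symm) h1 h2
    exact congrArg Subtype.val h3.eq
  set C := Subgroup.centralizer ((P.B ⊓ P.N : Subgroup G) : Set G) with hC
  have hUC : U ≤ C := by
    intro u hu
    rw [hC, Subgroup.mem_centralizer_iff]
    intro t ht
    exact hcomm t ht u hu
  have hconj : ∀ n ∈ P.N, ∀ t ∈ P.B ⊓ P.N, n * t * n⁻¹ ∈ P.B ⊓ P.N := fun n hn t ht =>
    ⟨P.conj_mem n hn t ht, P.N.mul_mem (P.N.mul_mem hn (Subgroup.mem_inf.mp ht).2) (P.N.inv_mem hn)⟩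
  have hNC : P.N ≤ Subgroup.normalizer (C : Set G) := by
    have key : ∀ n ∈ P.N, ∀ c ∈ C, n * c * n⁻¹ ∈ C := by
      intro n hn c hc
      rw [hC, Subgroup.mem_centralizer_iff] at hc ⊢
      intro t ht
      have h1 := hc _ (hconj n⁻¹ (inv_mem hn) t ht)
      rw [inv_inv] at h1
      calc t * (n * c * n⁻¹) = n * ((n⁻¹ * t * n) * c) * n⁻¹ := by group
        _ = n * (c * (n⁻¹ * t * n)) * n⁻¹ := by rw [h1]
        _ = n * c * n⁻¹ * t := by group
    intro n hn
    rw [Subgroup.mem_normalizer_iff]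
    intro c
    refine ⟨key n hn c, fun h1 => ?_⟩
    have := key n⁻¹ (inv_mem hn) _ h1
    rwa [show n⁻¹ * (n * c * n⁻¹) * n⁻¹⁻¹ = c by group] at this
  have hBC : P.B ≤ Subgroup.normalizer (C : Set G) := by
    intro b hb
    obtain ⟨u, hu, t, ht, rfl⟩ := h.cover' hb
    exact mul_mem (Subgroup.le_normalizer (hUC hu)) (hNC ht.2)
  have htop : Subgroup.normalizer (C : Set G) = ⊤ := by
    rw [eq_top_iff, ← P.sup_eq_top]
    exact sup_le hBC hNC
  have hCn := Subgroup.normalizer_eq_top_iff.mp htop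
  have hCtop : C = ⊤ := by
    rcases hCn.eq_bot_or_eq_top with h1 | h1
    · exact absurd (le_bot_iff.mp (h1 ▸ hUC)) hU
    · exact h1
  have hT1 : ∀ t ∈ P.B ⊓ P.N, t = 1 := by
    intro t ht
    have h1 : t ∈ Subgroup.center G := by
      rw [Subgroup.mem_center_iff]
      intro g
      have h2 : g ∈ C := hCtop ▸ Subgroup.mem_top g
      rw [hC, Subgroup.mem_centralizer_iff] at h2
      exact (h2 t ht).symm
    rw [center_eq_bot hna] at h1
    exact Subgroup.mem_bot.mp h1
  apply le_antisymm _ h.le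
  intro b hb
  obtain ⟨u, hu, t, ht, rfl⟩ := h.cover' hb
  rw [hT1 t ht, mul_one]
  exact hu

/-- `SL₂` over a field of odd order is not nilpotent -/
theorem SL_not_nilp {F : Type*} [Field F] [Fintype F] (ho : Odd (Fintype.card F)) :
    ¬ Group.IsNilpotent (Matrix.SpecialLinearGroup (Fin 2) F) := by
  classical
  intro hn
  obtain ⟨p, hp⟩ := CharP.exists F
  have hpp : p.Prime := CharP.char_is_prime F p
  have := Fact.mk hpp
  have hp2 : p ≠ 2 := by
    rintro rfl
    obtain ⟨n, -, hcard⟩ := FiniteField.card F 2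
    rw [hcard] at ho
    exact absurd ho (by
      rw [Nat.not_odd_iff_even]
      exact even_two.pow_of_ne_zero n.ne_zero)
  let x : Matrix.SpecialLinearGroup (Fin 2) F := ⟨!![1, 1; 0, 1], by simp [Matrix.det_fin_two]⟩
  let w : Matrix.SpecialLinearGroup (Fin 2) F := ⟨!![0, 1; -1, 0], by simp [Matrix.det_fin_two]⟩
  have hx : ∀ n : ℕ, (x ^ n).1 = !![1, (n : F); 0, 1] := by
    intro n
    induction n with
    | zero => ext i j; fin_cases i <;> fin_cases j <;> simp
    | succ n ih =>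
      rw [pow_succ, Matrix.SpecialLinearGroup.coe_mul, ih]
      ext i j
      fin_cases i <;> fin_cases j <;> (simp [x, Matrix.mul_apply, Fin.sum_univ_two]; try ring)
  have hxp : x ^ p = 1 := by
    apply Subtype.ext
    rw [hx, CharP.cast_eq_zero]
    ext i j; fin_cases i <;> fin_cases j <;> simp
  have hw4 : w ^ 4 = 1 := by
    apply Subtype.ext
    have h2 : w * w = ⟨!![-1, 0; 0, -1], by simp [Matrix.det_fin_two]⟩ := by
      apply Subtype.ext
      rw [Matrix.SpecialLinearGroup.coe_mul]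
      ext i j
      fin_cases i <;> fin_cases j <;> simp [w, Matrix.mul_apply, Fin.sum_univ_two]
    have h4 : w ^ 4 = (w * w) * (w * w) := by rw [pow_succ, pow_succ, pow_two]; group
    have h5 : (w * w).1 = !![-1, 0; 0, -1] := congrArg Subtype.val h2
    rw [h4, Matrix.SpecialLinearGroup.coe_mul]
    change (w * w).1 * (w * w).1 = 1
    rw [h5]
    ext i j
    fin_cases i <;> fin_cases j <;> simp [Matrix.mul_apply, Fin.sum_univ_two]
  have hc : Nat.Coprime p 4 := by
    have : Nat.Coprime p 2 := (Nat.coprime_primes hpp Nat.prime_two).mpr hp2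
    exact Nat.Coprime.pow_right 2 this
  have h := Cfsg.Agent.Lib.NilpotentCoprime.commute_of_pow_eq_one hc hxp hw4
  have h1 : (x * w).1 0 0 = (w * x).1 0 0 := by rw [h.eq]
  rw [Matrix.SpecialLinearGroup.coe_mul, Matrix.SpecialLinearGroup.coe_mul] at h1
  simp [x, w, Matrix.mul_apply, Fin.sum_univ_two] at h1

/-- the centralizer of an involution, if all involutions are conjugate and `CentForm` holds -/
theorem exists_of_involution {A : Type v} {G : Type u} [Group A] [Group G] [Finite G] [IsSimpleGroup G]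
    [MulDistribMulAction A G] (hna : ¬ Group.IsSolvable G) (h2 : 2 ∣ Nat.card G)
    (hcf : Cfsg.Agent.GTwoOdd.CentForm G)
    (hconj : ∀ y z : G, orderOf y = 2 → orderOf z = 2 → ∃ c : G, c * y * c⁻¹ = z) :
    ∃ X : Subgroup G, X ≠ ⊤ ∧ Cfsg.Agent.H580.Two.StableClass A X ∧ ¬ Group.IsNilpotent X ∧ Odd X.index := by
  have : Fact (Nat.Prime 2) := ⟨Nat.prime_two⟩
  obtain ⟨Q⟩ := (inferInstance : Nonempty (Sylow 2 G))
  have hQ : (Q : Subgroup G) ≠ ⊥ := Q.ne_bot_of_dvd_card h2
  have hQn : Nontrivial (Q : Subgroup G) := (Subgroup.nontrivial_iff_ne_bot _).mpr hQ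
  have hZ : Nontrivial (Subgroup.center (Q : Subgroup G)) := Q.2.center_nontrivial
  have hZ2 : 2 ∣ Nat.card (Subgroup.center (Q : Subgroup G)) := by
    obtain ⟨n, hn⟩ := IsPGroup.iff_card.mp (Q.2.to_subgroup (Subgroup.center (Q : Subgroup G)))
    rw [hn]
    refine dvd_pow_self 2 ?_
    rintro rfl
    rw [pow_zero] at hn
    exact (Finite.one_lt_card (α := Subgroup.center (Q : Subgroup G))).ne' hn
  obtain ⟨z', hz'⟩ := exists_prime_orderOf_dvd_card' 2 hZ2
  set z : G := ((z' : (Q : Subgroup G)) : G) with hz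
  have hzo : orderOf z = 2 := by
    rw [hz, Subgroup.orderOf_coe, Subgroup.orderOf_coe, hz']
  have hQz : (Q : Subgroup G) ≤ Subgroup.centralizer {z} := by
    intro x hx
    rw [Subgroup.mem_centralizer_singleton_iff]
    have h1 := Subgroup.mem_center_iff.mp z'.2 ⟨x, hx⟩
    exact congrArg Subtype.val h1
  refine ⟨Subgroup.centralizer {z}, ?_, ?_, ?_, ?_⟩
  · intro h
    have h1 : z ∈ Subgroup.center G := by
      rw [Subgroup.mem_center_iff]
      intro g
      have h2 : g ∈ Subgroup.centralizer {z} := h ▸ Subgroup.mem_top g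
      exact Subgroup.mem_centralizer_singleton_iff.mp h2
    rw [center_eq_bot hna, Subgroup.mem_bot] at h1
    rw [h1, orderOf_one] at hzo
    omega
  · intro a
    have h1 : orderOf (a • z) = 2 := by
      rw [← hzo]
      exact (MulDistribMulAction.toMulEquiv G a).orderOf_eq z
    obtain ⟨c, hc⟩ := hconj z (a • z) hzo h1
    refine ⟨c, fun x hx => ?_⟩
    rw [Subgroup.mem_pointwise_smul_iff_inv_smul_mem, ← map_inv, MulAut.smul_def, MulAut.conj_apply, inv_inv,
      Subgroup.mem_centralizer_singleton_iff]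
    rw [Subgroup.mem_centralizer_singleton_iff] at hx
    have h2 : a • x * (a • z) = a • z * a • x := by rw [← smul_mul', ← smul_mul', hx]
    rw [← hc] at h2
    calc c⁻¹ * a • x * c * z = c⁻¹ * (a • x * (c * z * c⁻¹)) * c := by group
      _ = c⁻¹ * (c * z * c⁻¹ * a • x) * c := by rw [h2]
      _ = z * (c⁻¹ * a • x * c) := by group
  · intro hn
    obtain ⟨K, _, _, f, hf, ho, hfz, -⟩ := hcf z hzo
    apply SL_not_nilp ho
    have h1 : f.range ≤ Subgroup.centralizer {z} := by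
      rintro _ ⟨x, rfl⟩
      rw [Subgroup.mem_centralizer_singleton_iff]
      exact hfz x
    exact Cfsg.Agent.H580.Two.nilp_congr (MonoidHom.ofInjective hf) (Cfsg.Agent.H580.Two.nilp_of_le h1 hn)
  · rw [← Nat.not_even_iff_odd, even_iff_two_dvd]
    intro h
    exact Q.not_dvd_index (h.trans (Subgroup.index_dvd_of_le hQz))

/-- the primitive prime divisors of `q⁶ - 1` -/
theorem exists_ppd {p f : ℕ} (hp : p.Prime) (hf : f ≠ 0) (hq : p ^ f ≠ 2) :
    ∃ r : ℕ, r.Prime ∧ (∀ m, r ∣ p ^ m - 1 ↔ 6 * f ∣ m) ∧ 5 ≤ r ∧ r ≠ p ∧ r ∣ (p ^ f) ^ 3 + 1 := by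
  obtain ⟨r, hr, h1, h2, h3⟩ := Cfsg.Agent.Lib.Zsigmondy.exists_primitive (a := p) (n := 6 * f) hp.two_le
    (by omega) (by omega) (by
      rintro ⟨h4, h5⟩
      apply hq
      have : f = 1 := by omega
      rw [h4, this, pow_one])
  refine ⟨r, hr, h1, ?_, ?_, ?_⟩
  · have h4 : 6 * f ≤ r - 1 := Nat.le_of_dvd (by have := hr.two_le; omega) h2
    omega
  · rintro rfl
    exact h3 dvd_rfl
  · have h4 : r ∣ p ^ (6 * f) - 1 := (h1 _).2 dvd_rfl
    have h5 : ¬ r ∣ p ^ (3 * f) - 1 := fun h => by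
      have := Nat.le_of_dvd (by omega) ((h1 _).1 h)
      omega
    have h6 : p ^ (6 * f) - 1 = ((p ^ f) ^ 3 + 1) * (p ^ (3 * f) - 1) := by
      rw [← pow_mul, mul_comm f 3, Nat.mul_sub_one, add_mul, ← pow_add, show 3 * f + 3 * f = 6 * f by ring]
      have : 1 ≤ p ^ (3 * f) := Nat.one_le_pow _ _ hp.pos
      omega
    rw [h6] at h4
    exact (hr.dvd_mul.1 h4).resolve_right h5

/-- **`PSU₃(q)`** -/
theorem false_psu_three {A : Type v} {G : Type u} [Group A] [Finite A] [Group G] [Finite G] [MulDistribMulAction A G]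
    (hcop : (Nat.card A).Coprime (Nat.card G)) (hsol : Group.IsSolvable A)
    (hcl : Cfsg.Agent.H580.Two.TwoCl A G) {F : Type} [Field F] [Fintype F] {q : ℕ} (hF : Fintype.card F = q ^ 2)
    (hq : q ≠ 2) (e : G ≃* Cfsg.PSU 3 F q) : False := by
  classical
  -- the characteristic
  obtain ⟨p, hchar⟩ := CharP.exists F
  obtain ⟨n, hp, hn⟩ := FiniteField.card F p
  have hpf := Fact.mk hp
  obtain ⟨f, rfl, hf0⟩ : ∃ f, q = p ^ f ∧ f ≠ 0 := by
    have h1 : q ∣ p ^ (n : ℕ) := by
      rw [← hn, hF]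
      exact dvd_pow_self q two_ne_zero
    obtain ⟨f, -, hf⟩ := (Nat.dvd_prime_pow hp).1 h1
    refine ⟨f, hf, ?_⟩
    rintro rfl
    rw [pow_zero] at hf
    rw [hf, one_pow] at hF
    have := Fintype.one_lt_card (α := F)
    omega
  set q := p ^ f with hqdef
  have hpq : p ∣ q := dvd_pow_self p hf0
  have hq3 : 3 ≤ q := by
    have h1 : p ≤ q := Nat.le_of_dvd (Nat.pow_pos hp.pos) hpq
    have := hp.two_le
    omega
  obtain ⟨t, ht⟩ : ∃ t, q = t + 1 := ⟨q - 1, by omega⟩
  -- the order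
  have hcard : Nat.gcd 3 (t + 2) * Nat.card G = q ^ 3 * (t * ((t + 2) ^ 2 * (t ^ 2 + t + 1))) := by
    have h := Cfsg.Agent.HKS.EndOrd.card_psu_three (F := F) (t := t) (by rw [hF, ht])
    rw [Nat.card_congr e.toEquiv, ht]
    exact h
  have hg3 : Nat.gcd 3 (t + 2) ∣ 3 := Nat.gcd_dvd_left _ _
  have hgt : Nat.gcd 3 (t + 2) ∣ t + 2 := Nat.gcd_dvd_right _ _
  set g := Nat.gcd 3 (t + 2) with hgdef
  have hg0 : g ≤ 3 := Nat.le_of_dvd (by norm_num) hg3
  have hgpos : 0 < g := Nat.pos_of_dvd_of_pos hg3 (by norm_num)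
  have hnt : ¬ p ∣ t := fun h => by
    have h1 : p ∣ t + 1 := ht ▸ hpq
    have h2 := (Nat.dvd_add_right h).1 h1
    exact hp.one_lt.ne' (Nat.dvd_one.1 h2)
  have hnt2 : ¬ p ∣ t + 2 := fun h => by
    have h1 : p ∣ t + 1 := ht ▸ hpq
    have h2 : p ∣ 1 := (Nat.dvd_add_right h1).1 h
    exact hp.one_lt.ne' (Nat.dvd_one.1 h2)
  have hnt3 : ¬ p ∣ t ^ 2 + t + 1 := fun h => by
    have h1 : p ∣ t * (t + 1) := (ht ▸ hpq : p ∣ t + 1).mul_left t
    have h2 : p ∣ 1 := (Nat.dvd_add_right h1).1 (by rwa [show t * (t + 1) + 1 = t ^ 2 + t + 1 by ring])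
    exact hp.one_lt.ne' (Nat.dvd_one.1 h2)
  have hpm : ¬ p ∣ t * ((t + 2) ^ 2 * (t ^ 2 + t + 1)) := by
    rw [hp.dvd_mul, hp.dvd_mul]
    rintro (h | h | h)
    · exact hnt h
    · exact hnt2 (hp.dvd_of_dvd_pow h)
    · exact hnt3 h
  have hpg : ¬ p ∣ g := fun h => hnt2 (h.trans hgt)
  have hfac : (Nat.card G).factorization p = 3 * f := by
    have h0 : Nat.card G ≠ 0 := Nat.card_pos.ne'
    have hm0 : t * ((t + 2) ^ 2 * (t ^ 2 + t + 1)) ≠ 0 := fun h => hpm (h ▸ dvd_zero p)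
    have h1 : (g * Nat.card G).factorization p =
        (q ^ 3 * (t * ((t + 2) ^ 2 * (t ^ 2 + t + 1)))).factorization p := by rw [hcard]
    rw [Nat.factorization_mul hgpos.ne' h0, Nat.factorization_mul (by positivity) hm0] at h1
    rw [Finsupp.add_apply, Finsupp.add_apply, Nat.factorization_eq_zero_of_not_dvd hpg,
      Nat.factorization_eq_zero_of_not_dvd hpm, hqdef, ← pow_mul, Nat.Prime.factorization_pow hp,
      Finsupp.single_eq_same] at h1
    omega
  -- simplicity
  have hsF : IsSimpleGroup (Cfsg.PSU 3 F q) := Cfsg.Agent.S0283.result hF 3 le_rfl (fun h => hq h.2)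
  have hsG : IsSimpleGroup G := (MulEquiv.isSimpleGroup_congr e).mpr hsF
  have hna : ¬ Group.IsSolvable G := by
    intro h
    have hcomm : ∀ a b : G, a * b = b * a := IsSimpleGroup.comm_iff_isSolvable.mpr h
    let _ : CommGroup G := { ‹Group G› with mul_comm := hcomm }
    have h1 : (Nat.card G).Prime := IsSimpleGroup.prime_card
    have h2 : p ^ 3 ∣ Nat.card G := by
      refine (pow_dvd_pow p (show 3 ≤ 3 * f by omega)).trans ?_
      rw [← hfac]
      exact Nat.ordProj_dvd _ _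
    have h3 : p = Nat.card G := (Nat.prime_dvd_prime_iff_eq hp h1).mp ((dvd_pow_self p (by norm_num)).trans h2)
    rw [← h3] at h2
    have h4 := Nat.le_of_dvd hp.pos h2
    have h5 : p < p ^ 3 := lt_self_pow₀ hp.one_lt (by norm_num)
    omega
  -- the (B,N)-pair
  obtain ⟨m, hm, hR⟩ := Cfsg.Agent.Omega.ML.Ex.Typ.typ_PSU (N := 3) hF le_rfl (p := p)
  obtain rfl : m = 1 := by omega
  obtain ⟨C, h, T, n, X, hW, R, hX⟩ := hR.of_equiv e.symm
  have hgen := Cfsg.Agent.Nodes.RGDLib.rgd_G1_le R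
  rw [hX, top_le_iff] at hgen
  set P := R.bnPair hgen with hP
  have hs : n 0 ∈ P.S := ⟨0, rfl⟩
  have hS : P.S = {n 0} := by
    change Set.range n = _
    ext x
    constructor
    · rintro ⟨i, rfl⟩
      rw [Subsingleton.elim i 0]
      rfl
    · rintro rfl
      exact ⟨0, rfl⟩
  have hsplit := SplitRGD.split_of_rgd hp R hgen (Cfsg.Agent.Tits.OfBN.normalCore_eq_bot P ⟨_, hs⟩)
  have hU : Nat.card (Cfsg.Agent.Nodes.BNOf.RGD.Sup X
      (Cfsg.Agent.Nodes.BNOf.RGD.Pos (CoxeterMatrix.B 1).toCoxeterSystem h)) = p ^ (3 * f) := by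
    obtain ⟨Q, hQ⟩ := Cfsg.Agent.H580.BN.exists_sylow_of_split hsplit
    rw [← hfac, ← hQ]
    exact Q.card_eq_multiplicity
  have hidx := Cfsg.Agent.H580.RankOne.index_B hsplit hS
  refine Cfsg.Agent.H580.RankOne.false_rank_one hcop hsol hna hcl hsplit hS hU ?_ ?_ ?_
  · -- `B` is not nilpotent
    intro hn
    have h1 := B_eq_of_nilp hna hsplit hs hn
    have h2 := Subgroup.card_mul_index P.B
    rw [hidx, h1, hU] at h2
    have h3 : p ^ (3 * f) = q ^ 3 := by rw [hqdef, ← pow_mul, mul_comm]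
    rw [h3] at h2
    rw [← h2] at hcard
    have h4 : g * (1 + q ^ 3) = t * ((t + 2) ^ 2 * (t ^ 2 + t + 1)) := by
      have h5 : 0 < q ^ 3 := by positivity
      apply Nat.eq_of_mul_eq_mul_left h5
      rw [← hcard]
      ring
    have h5 : 1 + q ^ 3 = (t + 2) * (t ^ 2 + t + 1) := by rw [ht]; ring
    have h6 : g = t * (t + 2) := by
      have h7 : 0 < (t + 2) * (t ^ 2 + t + 1) := by positivity
      apply Nat.eq_of_mul_eq_mul_right h7
      rw [← h5, h4, h5]
      ring
    nlinarith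
  · -- the centralizer of an involution
    intro hp2
    have hqo : Odd q := (hp.odd_of_ne_two hp2).pow
    have hte : 2 ∣ t := by
      obtain ⟨k, hk⟩ := hqo
      exact ⟨k, by omega⟩
    have h2G : 2 ∣ Nat.card G := by
      have h2 : 2 ∣ g * Nat.card G := by
        rw [hcard]
        exact Dvd.dvd.mul_left (hte.mul_right _) _
      refine (Nat.prime_two.dvd_mul.1 h2).resolve_left (fun h3 => ?_)
      have := h3.trans hg3
      omega
    exact exists_of_involution hna h2G (Cfsg.Agent.GTwoOdd.CentForm.of_equiv e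
      (Cfsg.Agent.GTwoOdd.CentPSU.centForm_psu hF hqo)) (by
        have key : ∀ y : G, orderOf y = 2 → ∃ c : Cfsg.PSU 3 F q,
            c * Cfsg.Agent.GTwoOdd.Core.HFiveB.vv hF hqo * c⁻¹ = e y := fun y hy =>
          Cfsg.Agent.GTwoOdd.CentPSU.exists_conj_vv hF hqo (by rw [MulEquiv.orderOf_eq]; exact hy)
        intro y z hy hz
        obtain ⟨c, hc⟩ := key y hy
        obtain ⟨d, hd⟩ := key z hz
        refine ⟨e.symm (d * c⁻¹), ?_⟩
        apply e.injective
        rw [map_mul, map_mul, map_inv, e.apply_symm_apply, ← hc, ← hd]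
        group)
  · -- arithmetic
    intro j hj hall
    obtain ⟨r, hr, hrm, hr5, hrp, hrd⟩ := exists_ppd hp hf0 hq
    have h1 : r ∣ Nat.card G := by
      have h2 : r ∣ g * Nat.card G := by
        rw [hcard]
        refine Dvd.dvd.mul_left (Dvd.dvd.mul_left ?_ _) _
        have h5 : (p ^ f) ^ 3 + 1 = (t + 2) * (t ^ 2 + t + 1) := by rw [← hqdef, ht]; ring
        rw [h5] at hrd
        exact hrd.trans ⟨t + 2, by ring⟩
      refine (hr.dvd_mul.1 h2).resolve_left (fun h3 => ?_)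
      have := Nat.le_of_dvd hgpos h3
      omega
    have h2 := hall r hr (by omega) hrp h1
    have h3 : r ∣ p ^ j - 1 := (Nat.modEq_iff_dvd' (Nat.one_le_pow _ _ hp.pos)).1 h2.symm
    have h4 := (hrm j).1 h3
    by_contra hj0
    have := Nat.le_of_dvd (Nat.pos_of_ne_zero hj0) h4
    omega

end Cfsg.Agent.H60.PsuThree
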